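import Cfsg.Agent.H706.Ortho

/-!
# The correspondence

In the configuration of `Uniq`: `S`-invariant irreducible characters of `K` and `D` correspond
bijectively through multiplicities prime to `p`.
-/

set_option autoImplicit false

namespace Cfsg.Agent.H706.Corr

open Cfsg Cfsg.Agent.Characters.Core Cfsg.Agent.Characters.Clifford
open Cfsg.Agent.H706.Uniq Cfsg.Agent.H706.Ortho Cfsg.Agent.H706.MultFormula
open Cfsg.Agent.H593.GlaubermanP (actIrr exists_mult degree_eq sum_idem idem idem_apply)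
open scoped ComplexConjugate

variable {S K D : Type*} [Group S] [Group K] [Group D] [MulDistribMulAction S K]
  [MulDistribMulAction S D] {Q : Subgroup K} {ι : D →* K} {p : ℕ}

/-- Invariance of a function. -/
def SInv (S : Type*) {K : Type*} [Group S] [Group K] [MulDistribMulAction S K] (f : K → ℂ) :
    Prop := ∀ (s : S) (g : K), f (s • g) = f g

theorem mem_fixed_iff (χ : IrrCharacter K) :
    χ ∈ @MulAction.fixedPoints S (IrrCharacter K) _ (actIrr S) ↔ SInv S (χ : K → ℂ) := by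
  let _ : MulAction S (IrrCharacter K) := actIrr S
  constructor
  · intro h s g
    have h1 : ((s • χ : IrrCharacter K) : K → ℂ) (s • g) = (χ : K → ℂ) (s⁻¹ • (s • g)) := rfl
    have h2 : s • χ = χ := h s
    rw [h2, inv_smul_smul] at h1
    exact h1
  · intro h s
    apply Subtype.ext
    funext g
    exact h s⁻¹ g

variable [Fintype K] [Fintype D]

/-- The multiplicity. -/
noncomputable def mlt (ι : D →* K) (χ : IrrCharacter K) (ξ : IrrCharacter D) : ℕ :=
  Classical.choose (exists_mult (ι := ι) χ ξ)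

theorem mlt_spec (χ : IrrCharacter K) (ξ : IrrCharacter D) :
    classInner ((χ : K → ℂ) ∘ ι) (ξ : D → ℂ) = mlt ι χ ξ :=
  Classical.choose_spec (exists_mult (ι := ι) χ ξ)

theorem mlt_eq {χ : IrrCharacter K} {ξ : IrrCharacter D} {m : ℕ}
    (h : classInner ((χ : K → ℂ) ∘ ι) (ξ : D → ℂ) = m) : mlt ι χ ξ = m := by
  rw [mlt_spec] at h
  exact_mod_cast h

/-- The multiplicity is invariant in the second argument. -/
theorem mlt_smul_right (h : Config S Q ι p) {χ : IrrCharacter K} (hχ : SInv S (χ : K → ℂ))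
    (s : S) (ξ : IrrCharacter D) :
    mlt ι χ (@SMul.smul S (IrrCharacter D) (actIrr S).toSMul s ξ) = mlt ι χ ξ := by
  apply mlt_eq
  rw [← mlt_spec]
  let e : D ≃* D := MulDistribMulAction.toMulEquiv D s⁻¹
  have h1 := classInner_comp_mulEquiv e ((χ : K → ℂ) ∘ ι) (ξ : D → ℂ)
  rw [← h1]
  congr 1
  funext d
  show (χ : K → ℂ) (ι d) = (χ : K → ℂ) (ι (s⁻¹ • d))
  rw [h.equi, hχ]

/-- The multiplicity is invariant in the first argument. -/
theorem mlt_smul_left (h : Config S Q ι p) {ξ : IrrCharacter D} (hξ : SInv S (ξ : D → ℂ))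
    (s : S) (χ : IrrCharacter K) :
    mlt ι (@SMul.smul S (IrrCharacter K) (actIrr S).toSMul s χ) ξ = mlt ι χ ξ := by
  apply mlt_eq
  rw [← mlt_spec]
  let e : D ≃* D := MulDistribMulAction.toMulEquiv D s⁻¹
  have h1 := classInner_comp_mulEquiv e ((χ : K → ℂ) ∘ ι) (ξ : D → ℂ)
  rw [← h1]
  congr 1
  · funext d
    show (χ : K → ℂ) (s⁻¹ • ι d) = (χ : K → ℂ) (ι (s⁻¹ • d))
    rw [h.equi]
  · funext d
    exact (hξ s⁻¹ d).symm

variable [Fact p.Prime] [Q.Normal]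

/-- Uniqueness, in terms of `mlt`. -/
theorem unique' (h : Config S Q ι p) {χ : IrrCharacter K} (hχ : SInv S (χ : K → ℂ))
    {ξ₁ ξ₂ : IrrCharacter D} (h₁ : SInv S (ξ₁ : D → ℂ)) (h₂ : SInv S (ξ₂ : D → ℂ))
    (hp₁ : ¬ p ∣ mlt ι χ ξ₁) (hp₂ : ¬ p ∣ mlt ι χ ξ₂) : ξ₁ = ξ₂ :=
  Subtype.ext (h.unique χ.2 hχ ξ₁.2 ξ₂.2 h₁ h₂ (mlt_spec χ ξ₁) (mlt_spec χ ξ₂) hp₁ hp₂)

/-- The second moment. -/
theorem sum_mlt_mul (h : Config S Q ι p) [Fintype (IrrCharacter D)]
    [DecidablePred fun ξ : IrrCharacter D => SInv S (ξ : D → ℂ)] {χ χ' : IrrCharacter K}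
    (hχ : SInv S (χ : K → ℂ)) (hχ' : SInv S (χ' : K → ℂ)) [Decidable (χ = χ')] :
    (if χ = χ' then 1 else 0 : ZMod p) =
      ∑ ξ ∈ Finset.univ.filter (fun ξ : IrrCharacter D => SInv S (ξ : D → ℂ)),
        (mlt ι χ ξ : ZMod p) * mlt ι χ' ξ := by
  classical
  have h1 : classInner ((χ : K → ℂ) ∘ ι) ((χ' : K → ℂ) ∘ ι) =
      ((∑ ξ : IrrCharacter D, mlt ι χ ξ * mlt ι χ' ξ : ℕ) : ℂ) := by
    rw [classInner_eq_sum
      (isCharacter_isClassFunction (isCharacter_comp ι (isIrr_isCharacter χ.2)))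
      (isCharacter_isClassFunction (isCharacter_comp ι (isIrr_isCharacter χ'.2)))]
    push_cast
    refine Finset.sum_congr rfl fun ξ _ => ?_
    rw [mlt_spec, mlt_spec]
    simp
  have h2 : classInner (χ : K → ℂ) (χ' : K → ℂ) = ((if χ = χ' then 1 else 0 : ℕ) : ℂ) := by
    split_ifs with hc
    · rw [hc, classInner_irr_self χ'.2, Nat.cast_one]
    · rw [classInner_irr_ne χ.2 χ'.2 (fun h => hc (Subtype.ext h)), Nat.cast_zero]
  have h3 := inner_congr h (isIrr_isCharacter χ.2) (isIrr_isCharacter χ'.2) hχ hχ' h2 h1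
  push_cast at h3
  rw [h3]
  let _ : MulAction S (IrrCharacter D) := actIrr S
  rw [sum_fixed_zmod h.pS (fun ξ : IrrCharacter D => (mlt ι χ ξ : ZMod p) * mlt ι χ' ξ)]
  · refine Finset.sum_congr ?_ fun _ _ => rfl
    ext ξ
    simp only [Finset.mem_filter, Finset.mem_univ, true_and]
    exact mem_fixed_iff ξ
  · intro s ξ
    have h4 := mlt_smul_right h hχ s ξ
    have h5 := mlt_smul_right h hχ' s ξ
    show (mlt ι χ (s • ξ) : ZMod p) * mlt ι χ' (s • ξ) = _
    have e1 : mlt ι χ (s • ξ) = mlt ι χ ξ := h4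
    have e2 : mlt ι χ' (s • ξ) = mlt ι χ' ξ := h5
    rw [e1, e2]

/-- **Existence** of the correspondent. -/
theorem exists_xi (h : Config S Q ι p) {χ : IrrCharacter K} (hχ : SInv S (χ : K → ℂ)) :
    ∃ ξ : IrrCharacter D, SInv S (ξ : D → ℂ) ∧ ¬ p ∣ mlt ι χ ξ ∧
      ((mlt ι χ ξ : ZMod p) = 1 ∨ (mlt ι χ ξ : ZMod p) = -1) := by
  classical
  have := finite_irr (G := D)
  have := Fintype.ofFinite (IrrCharacter D)
  have h1 := sum_mlt_mul h hχ hχ
  rw [if_pos rfl] at h1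
  obtain ⟨ξ, hξ, hne⟩ : ∃ ξ ∈ Finset.univ.filter (fun ξ : IrrCharacter D => SInv S (ξ : D → ℂ)),
      (mlt ι χ ξ : ZMod p) * mlt ι χ ξ ≠ 0 := by
    by_contra hcon
    push Not at hcon
    rw [Finset.sum_eq_zero hcon] at h1
    exact one_ne_zero h1
  have hξS : SInv S (ξ : D → ℂ) := (Finset.mem_filter.1 hξ).2
  have hnd : ¬ p ∣ mlt ι χ ξ := by
    intro hd
    apply hne
    rw [(ZMod.natCast_eq_zero_iff _ _).2 hd, zero_mul]
  refine ⟨ξ, hξS, hnd, ?_⟩
  rw [Finset.sum_eq_single_of_mem ξ hξ] at h1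
  · have h2 : ((mlt ι χ ξ : ZMod p) - 1) * ((mlt ι χ ξ : ZMod p) + 1) = 0 := by
      linear_combination -h1
    rcases mul_eq_zero.1 h2 with h3 | h3
    · exact Or.inl (sub_eq_zero.1 h3)
    · exact Or.inr (eq_neg_of_add_eq_zero_left h3)
  · intro ξ' hξ' hξξ'
    have hξ'S : SInv S (ξ' : D → ℂ) := (Finset.mem_filter.1 hξ').2
    have h4 : p ∣ mlt ι χ ξ' := by
      by_contra h4
      exact hξξ' (unique' h hχ hξ'S hξS h4 hnd)
    rw [(ZMod.natCast_eq_zero_iff _ _).2 h4, zero_mul]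

/-- **Injectivity.** -/
theorem injective (h : Config S Q ι p) {χ χ' : IrrCharacter K} (hχ : SInv S (χ : K → ℂ))
    (hχ' : SInv S (χ' : K → ℂ)) {ξ : IrrCharacter D} (hξ : SInv S (ξ : D → ℂ))
    (h1 : ¬ p ∣ mlt ι χ ξ) (h2 : ¬ p ∣ mlt ι χ' ξ) : χ = χ' := by
  classical
  have := finite_irr (G := D)
  have := Fintype.ofFinite (IrrCharacter D)
  by_contra hne
  have h3 := sum_mlt_mul h hχ hχ'
  rw [if_neg hne, Finset.sum_eq_single_of_mem ξ (Finset.mem_filter.2 ⟨Finset.mem_univ _, hξ⟩)] at h3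
  · rcases mul_eq_zero.1 h3.symm with h4 | h4
    · exact h1 ((ZMod.natCast_eq_zero_iff _ _).1 h4)
    · exact h2 ((ZMod.natCast_eq_zero_iff _ _).1 h4)
  · intro ξ' hξ' hξξ'
    have hξ'S : SInv S (ξ' : D → ℂ) := (Finset.mem_filter.1 hξ').2
    have h4 : p ∣ mlt ι χ ξ' := by
      by_contra h4
      exact hξξ' (unique' h hχ hξ'S hξ h4 h1)
    rw [(ZMod.natCast_eq_zero_iff _ _).2 h4, zero_mul]

/-- **Degrees.** -/
theorem degree_congr (h : Config S Q ι p) {χ : IrrCharacter K} (hχ : SInv S (χ : K → ℂ))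
    {ξ : IrrCharacter D} (hξ : SInv S (ξ : D → ℂ)) (h1 : ¬ p ∣ mlt ι χ ξ) :
    (charDegree (χ : K → ℂ) : ZMod p) = mlt ι χ ξ * charDegree (ξ : D → ℂ) := by
  classical
  have := finite_irr (G := D)
  have := Fintype.ofFinite (IrrCharacter D)
  have h2 := degree_eq χ (fun ξ => mlt ι χ ξ) (fun ξ => mlt_spec χ ξ)
  rw [h2]
  push_cast
  let _ : MulAction S (IrrCharacter D) := actIrr S
  rw [sum_fixed_zmod h.pS (fun ξ : IrrCharacter D =>
    (mlt ι χ ξ : ZMod p) * (charDegree (ξ : D → ℂ) : ZMod p)), Finset.sum_eq_single_of_mem ξ]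
  · exact Finset.mem_filter.2 ⟨Finset.mem_univ _, (mem_fixed_iff ξ).2 hξ⟩
  · intro ξ' hξ' hξξ'
    have hξ'S : SInv S (ξ' : D → ℂ) := (mem_fixed_iff ξ').1 (Finset.mem_filter.1 hξ').2
    have h4 : p ∣ mlt ι χ ξ' := by
      by_contra h4
      exact hξξ' (unique' h hχ hξ'S hξ h4 h1)
    rw [(ZMod.natCast_eq_zero_iff _ _).2 h4, zero_mul]
  · intro s ξ
    have e1 : mlt ι χ (s • ξ) = mlt ι χ ξ := mlt_smul_right h hχ s ξ
    show (mlt ι χ (s • ξ) : ZMod p) * (charDegree ((s • ξ : IrrCharacter D) : D → ℂ) : ZMod p) = _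
    have e2 : charDegree ((s • ξ : IrrCharacter D) : D → ℂ) = charDegree (ξ : D → ℂ) := by
      unfold charDegree
      have : ((s • ξ : IrrCharacter D) : D → ℂ) 1 = (ξ : D → ℂ) (s⁻¹ • 1) := rfl
      rw [this, smul_one]
    rw [e1, e2]

omit [Fact p.Prime] [Q.Normal] [MulDistribMulAction S K] [MulDistribMulAction S D] [Group S] in
theorem sum_mlt_degree [Fintype (IrrCharacter K)] (hι : Function.Injective ι)
    (ξ : IrrCharacter D) :
    (∑ χ : IrrCharacter K, mlt ι χ ξ * charDegree (χ : K → ℂ)) * Nat.card D =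
      Nat.card K * charDegree (ξ : D → ℂ) := by
  classical
  have hdeg : ∀ χ : IrrCharacter K, (χ : K → ℂ) 1 = (charDegree (χ : K → ℂ) : ℂ) :=
    fun χ => Cfsg.Agent.Blocks.Basic.irr_one_eq_charDegree χ.2
  have hdegξ : (ξ : D → ℂ) 1 = (charDegree (ξ : D → ℂ) : ℂ) :=
    Cfsg.Agent.Blocks.Basic.irr_one_eq_charDegree ξ.2
  have hreg : ∀ g : K, ∑ χ : IrrCharacter K, (charDegree (χ : K → ℂ) : ℂ) * (χ : K → ℂ) g =
      if g = 1 then (Nat.card K : ℂ) else 0 := by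
    intro g
    have h1 := sum_idem (G := K) g
    simp only [idem_apply] at h1
    rw [← Finset.mul_sum] at h1
    have hK : (Nat.card K : ℂ) ≠ 0 := card_ne_zero_complex
    have h2 : ∑ χ : IrrCharacter K, (χ : K → ℂ) 1 * conj ((χ : K → ℂ) g) =
        if g = 1 then (Nat.card K : ℂ) else 0 := by
      rw [inv_mul_eq_iff_eq_mul₀ hK] at h1
      rw [h1]
      split_ifs <;> simp
    have h3 := congrArg conj h2
    rw [map_sum] at h3
    simp only [map_mul, Complex.conj_conj] at h3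
    have h4 : conj (if g = 1 then (Nat.card K : ℂ) else 0) = if g = 1 then (Nat.card K : ℂ) else 0 := by
      split_ifs <;> simp
    rw [h4] at h3
    rw [← h3]
    refine Finset.sum_congr rfl fun χ _ => ?_
    rw [hdeg χ]
    simp
  have hD : (Nat.card D : ℂ) ≠ 0 := card_ne_zero_complex
  have h5 : ((∑ χ : IrrCharacter K, mlt ι χ ξ * charDegree (χ : K → ℂ) : ℕ) : ℂ) * Nat.card D =
      Nat.card K * charDegree (ξ : D → ℂ) := by
    push_cast
    have h6 : ∀ χ : IrrCharacter K, (mlt ι χ ξ : ℂ) * charDegree (χ : K → ℂ) =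
        (Nat.card D : ℂ)⁻¹ * ∑ d : D, ((charDegree (χ : K → ℂ) : ℂ) * (χ : K → ℂ) (ι d)) *
          conj ((ξ : D → ℂ) d) := by
      intro χ
      rw [← mlt_spec, classInner_def, mul_assoc, Finset.sum_mul]
      congr 1
      refine Finset.sum_congr rfl fun d _ => ?_
      rw [Function.comp_apply]
      ring
    rw [Finset.sum_congr rfl fun χ _ => h6 χ, ← Finset.mul_sum, Finset.sum_comm]
    have h7 : ∀ d : D, ∑ χ : IrrCharacter K, ((charDegree (χ : K → ℂ) : ℂ) * (χ : K → ℂ) (ι d)) *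
          conj ((ξ : D → ℂ) d) = if d = 1 then (Nat.card K : ℂ) * conj ((ξ : D → ℂ) 1) else 0 := by
      intro d
      rw [← Finset.sum_mul, hreg]
      by_cases hd : d = 1
      · rw [hd, map_one, if_pos rfl, if_pos rfl]
      · have : ι d ≠ 1 := fun h => hd (hι (by rw [h, map_one]))
        rw [if_neg this, if_neg hd, zero_mul]
    rw [Finset.sum_congr rfl fun d _ => h7 d, Finset.sum_ite_eq' Finset.univ (1 : D),
      if_pos (Finset.mem_univ _), hdegξ]
    have h8 : conj ((charDegree (ξ : D → ℂ) : ℕ) : ℂ) = (charDegree (ξ : D → ℂ) : ℂ) := by simp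
    rw [h8]
    field_simp
  exact_mod_cast h5

/-- **Surjectivity.** -/
theorem exists_chi (h : Config S Q ι p) {ξ : IrrCharacter D} (hξ : SInv S (ξ : D → ℂ)) :
    ∃ χ : IrrCharacter K, SInv S (χ : K → ℂ) ∧ ¬ p ∣ mlt ι χ ξ := by
  classical
  have := Fintype.ofFinite Q
  have := Fintype.ofFinite (Q.comap ι)
  have := finite_irr (G := K)
  have := Fintype.ofFinite (IrrCharacter K)
  have hp : p.Prime := Fact.out
  by_contra hcon
  push Not at hcon
  obtain ⟨θ, hθi, -, hθξ⟩ := h.exists_fixed ξ.2 hξ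
  obtain ⟨d, hd0, hd⟩ := isIrr_apply_one hθi
  have hθDi : IsIrrCharacter (Q.comap ι) (pull ι Q θ) :=
    isIrr_comp h.eQ.toMonoidHom h.eQ.surjective hθi
  have hd' : pull ι Q θ 1 = d := by
    rw [h.pull_eq, Function.comp_apply, map_one, hd]
  obtain ⟨hdξ, hvidx⟩ := Cfsg.Agent.S0887.result (Q.comap ι) (ξ : D → ℂ) ξ.2 (pull ι Q θ) hθDi hθξ
    (charDegree (ξ : D → ℂ)) d (Cfsg.Agent.Blocks.Basic.irr_one_eq_charDegree ξ.2) hd'
  obtain ⟨v, hv⟩ := hdξ
  rw [hv, Nat.mul_div_cancel_left _ hd0] at hvidx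
  have hpv : ¬ p ∣ v := fun hd => h.idxD (hd.trans hvidx)
  -- degrees of the constituents
  have hu : ∀ χ : IrrCharacter K, mlt ι χ ξ * charDegree (χ : K → ℂ) =
      d * (mlt ι χ ξ * (charDegree (χ : K → ℂ) / d)) := by
    intro χ
    by_cases h0 : mlt ι χ ξ = 0
    · rw [h0]; simp
    · have h1 : classInner ((χ : K → ℂ) ∘ ι) (ξ : D → ℂ) ≠ 0 := by
        rw [mlt_spec]; exact_mod_cast h0
      have h2 := h.over (isIrr_isCharacter χ.2) ξ.2 hθi h1 hθξ
      obtain ⟨h3, -⟩ := Cfsg.Agent.S0887.result Q (χ : K → ℂ) χ.2 θ hθi h2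
        (charDegree (χ : K → ℂ)) d (Cfsg.Agent.Blocks.Basic.irr_one_eq_charDegree χ.2) hd
      obtain ⟨w, hw⟩ := h3
      rw [hw, Nat.mul_div_cancel_left _ hd0]
      ring
  have hsum := sum_mlt_degree h.inj ξ
  rw [Finset.sum_congr rfl fun χ _ => hu χ, ← Finset.mul_sum, hv] at hsum
  have hcardK : Nat.card K = Nat.card (K ⧸ Q) * Nat.card Q :=
    Subgroup.card_eq_card_quotient_mul_card_subgroup Q
  have hcardD : Nat.card D = Nat.card (D ⧸ (Q.comap ι)) * Nat.card Q := by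
    rw [← Nat.card_congr h.eQ.toEquiv]
    exact Subgroup.card_eq_card_quotient_mul_card_subgroup (Q.comap ι)
  have hQ0 : 0 < Nat.card Q := Nat.card_pos
  have hkey : (∑ χ : IrrCharacter K, mlt ι χ ξ * (charDegree (χ : K → ℂ) / d)) *
      Nat.card (D ⧸ (Q.comap ι)) = Nat.card (K ⧸ Q) * v := by
    rw [hcardK, hcardD] at hsum
    have h9 : (d * Nat.card Q) * ((∑ χ : IrrCharacter K, mlt ι χ ξ * (charDegree (χ : K → ℂ) / d)) *
      Nat.card (D ⧸ (Q.comap ι))) = (d * Nat.card Q) * (Nat.card (K ⧸ Q) * v) := by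
      linarith [hsum]
    exact Nat.eq_of_mul_eq_mul_left (Nat.mul_pos hd0 hQ0) h9
  have hz := congrArg (fun n : ℕ => (n : ZMod p)) hkey
  simp only [Nat.cast_mul, Nat.cast_sum] at hz
  let _ : MulAction S (IrrCharacter K) := actIrr S
  have hzero : ∑ χ : IrrCharacter K, (mlt ι χ ξ : ZMod p) *
      ((charDegree (χ : K → ℂ) / d : ℕ) : ZMod p) = 0 := by
    rw [sum_fixed_zmod h.pS (fun χ : IrrCharacter K => (mlt ι χ ξ : ZMod p) *
      ((charDegree (χ : K → ℂ) / d : ℕ) : ZMod p))]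
    · refine Finset.sum_eq_zero fun χ hχ => ?_
      have h1 := hcon χ ((mem_fixed_iff χ).1 (Finset.mem_filter.1 hχ).2)
      rw [(ZMod.natCast_eq_zero_iff _ _).2 h1, zero_mul]
    · intro s χ
      have e1 : mlt ι (s • χ) ξ = mlt ι χ ξ := mlt_smul_left h hξ s χ
      have e2 : charDegree ((s • χ : IrrCharacter K) : K → ℂ) = charDegree (χ : K → ℂ) := by
        unfold charDegree
        have : ((s • χ : IrrCharacter K) : K → ℂ) 1 = (χ : K → ℂ) (s⁻¹ • 1) := rfl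
        rw [this, smul_one]
      show (mlt ι (s • χ) ξ : ZMod p) *
        ((charDegree ((s • χ : IrrCharacter K) : K → ℂ) / d : ℕ) : ZMod p) = _
      rw [e1, e2]
  rw [hzero, zero_mul] at hz
  rcases mul_eq_zero.1 hz.symm with h1 | h1
  · exact h.idx ((ZMod.natCast_eq_zero_iff _ _).1 h1)
  · exact hpv ((ZMod.natCast_eq_zero_iff _ _).1 h1)

end Cfsg.Agent.H706.Corr
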